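import Mathlib
import Cfsg.Agent.Lib.Helper51.TIH.Defs

/-!
# TIH (S4118): package [QUOT] -- `G / O H` is abelian.
-/

set_option autoImplicit false

namespace Cfsg.Agent.Lib.Helper80.TIH

open Cfsg.Agent.Lib.Helper51.TIH
open scoped commutatorElement

universe u

/-- `|K H|` divides `|K| |H|` for a normal subgroup `K`. -/
theorem card_sup_dvd80 {G : Type u} [Group G] [Finite G] (K H : Subgroup G) [K.Normal] :
    Nat.card ↥(K ⊔ H) ∣ Nat.card K * Nat.card H := by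
  have h1 : Nat.card K * K.relIndex (K ⊔ H) = Nat.card ↥(K ⊔ H) := by
    have := Subgroup.card_mul_index (K.subgroupOf (K ⊔ H))
    rw [Nat.card_congr (Subgroup.subgroupOfEquivOfLe (le_sup_left : K ≤ K ⊔ H)).toEquiv] at this
    exact this
  rw [← h1, Subgroup.relIndex_sup_left]
  exact Nat.mul_dvd_mul_left _ (Subgroup.relIndex_dvd_card K H)

/-- `⁅A, A⁆` is normalized by `A`. -/
theorem conj_mem_comm80 {G : Type u} [Group G] (A : Subgroup G) {a b : G} (ha : a ∈ A)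
    (hb : b ∈ ⁅A, A⁆) : a * b * a⁻¹ ∈ ⁅A, A⁆ := by
  rw [Subgroup.commutator_def] at hb ⊢
  induction hb using Subgroup.closure_induction with
  | mem x hx =>
    obtain ⟨g₁, hg₁, g₂, hg₂, rfl⟩ := hx
    apply Subgroup.subset_closure
    refine ⟨a * g₁ * a⁻¹, mul_mem (mul_mem ha hg₁) (inv_mem ha), a * g₂ * a⁻¹,
      mul_mem (mul_mem ha hg₂) (inv_mem ha), ?_⟩
    simp only [commutatorElement_def]
    group
  | one =>
    have : a * 1 * a⁻¹ = 1 := by group
    rw [this]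
    exact one_mem _
  | mul x y _ _ hx hy =>
    have : a * (x * y) * a⁻¹ = (a * x * a⁻¹) * (a * y * a⁻¹) := by group
    rw [this]
    exact mul_mem hx hy
  | inv x _ hx =>
    have : a * x⁻¹ * a⁻¹ = (a * x * a⁻¹)⁻¹ := by group
    rw [this]
    exact inv_mem hx

theorem pkgQuot : PkgQuot.{u} := by
  intro G _ _ H O hcore hON hQn hcop hA
  obtain ⟨hOn, hOcop, hOmax⟩ := hcore
  have hOn' : O.Normal := hOn
  have hQn' : (O ⊔ H).Normal := hQn
  have hHN : H ≤ Subgroup.normalizer (H : Set G) := Subgroup.le_normalizer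
  have hcardH' : Nat.card (H.subgroupOf (Subgroup.normalizer (H : Set G))) = Nat.card H :=
    Nat.card_congr (Subgroup.subgroupOfEquivOfLe hHN).toEquiv
  have hcop' : (Nat.card (H.subgroupOf (Subgroup.normalizer (H : Set G)))).Coprime
      (H.subgroupOf (Subgroup.normalizer (H : Set G))).index := by
    rw [hcardH']
    exact hcop
  obtain ⟨A', hA'⟩ := Subgroup.exists_right_complement'_of_coprime hcop'
  have hAN : A'.map (Subgroup.normalizer (H : Set G)).subtype ≤ Subgroup.normalizer (H : Set G) :=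
    Subgroup.map_subtype_le A'
  have hcardA : Nat.card (A'.map (Subgroup.normalizer (H : Set G)).subtype) = Nat.card A' :=
    Subgroup.card_map_of_injective (Subgroup.subtype_injective _)
  have hAcop : (Nat.card (A'.map (Subgroup.normalizer (H : Set G)).subtype)).Coprime
      (Nat.card H) := by
    have h1 : (H.subgroupOf (Subgroup.normalizer (H : Set G))).index = Nat.card A' :=
      hA'.symm.index_eq_card
    rw [hcardA, ← h1]
    exact hcop.symm
  have hB := hA _ hAN hAcop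
  generalize hAdef : A'.map (Subgroup.normalizer (H : Set G)).subtype = A at hAN hcardA hAcop hB
  have hdecN : ∀ n ∈ Subgroup.normalizer (H : Set G), ∃ h ∈ H, ∃ a ∈ A, n = h * a := by
    intro n hn
    obtain ⟨⟨⟨h', hh'⟩, ⟨a', ha'⟩⟩, hx, -⟩ :=
      (Subgroup.isComplement'_def.mp hA').existsUnique ⟨n, hn⟩
    refine ⟨h', Subgroup.mem_subgroupOf.mp hh', a', ?_, ?_⟩
    · rw [← hAdef]
      exact Subgroup.mem_map.mpr ⟨a', ha', rfl⟩
    · exact (congrArg Subtype.val hx).symm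
  have hdecG : ∀ g : G, ∃ u ∈ O, ∃ h ∈ H, ∃ a ∈ A, g = u * h * a := by
    intro g
    have hg : g ∈ (↑(O ⊔ Subgroup.normalizer (H : Set G)) : Set G) := by
      rw [hON]
      exact Subgroup.mem_top g
    rw [Subgroup.normal_mul] at hg
    obtain ⟨u, hu, n, hn, rfl⟩ := Set.mem_mul.mp hg
    obtain ⟨h, hh, a, ha, rfl⟩ := hdecN n hn
    exact ⟨u, hu, h, hh, a, ha, (mul_assoc _ _ _).symm⟩
  have hBA : ⁅A, A⁆ ≤ A := by
    rw [Subgroup.commutator_le]
    intro g₁ h₁ g₂ h₂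
    rw [commutatorElement_def]
    exact mul_mem (mul_mem (mul_mem h₁ h₂) (inv_mem h₁)) (inv_mem h₂)
  have hKnormal : (O ⊔ ⁅A, A⁆).Normal := by
    constructor
    intro k hk g
    have hk' : k ∈ (↑(O ⊔ ⁅A, A⁆) : Set G) := hk
    rw [Subgroup.normal_mul] at hk'
    obtain ⟨o, ho, b, hb, rfl⟩ := Set.mem_mul.mp hk'
    have e : g * (o * b) * g⁻¹ = (g * o * g⁻¹) * (g * b * g⁻¹) := by group
    rw [e]
    refine mul_mem (Subgroup.mem_sup_left (hOn'.conj_mem o ho g)) ?_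
    obtain ⟨u, hu, h, hh, a, ha, rfl⟩ := hdecG g
    have hb1 : a * b * a⁻¹ ∈ ⁅A, A⁆ := conj_mem_comm80 A ha hb
    have hb2 : h * (a * b * a⁻¹) * h⁻¹ = a * b * a⁻¹ := by
      have hc := Subgroup.mem_centralizer_iff.mp (hB hb1) h hh
      rw [hc]
      group
    have e2 : u * h * a * b * (u * h * a)⁻¹ =
        (u * ((a * b * a⁻¹) * u⁻¹ * (a * b * a⁻¹)⁻¹)) * (a * b * a⁻¹) := by
      have e3 : u * h * a * b * (u * h * a)⁻¹ = u * (h * (a * b * a⁻¹) * h⁻¹) * u⁻¹ := by group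
      rw [e3, hb2]
      group
    rw [e2]
    exact mul_mem (Subgroup.mem_sup_left (mul_mem hu (hOn'.conj_mem u⁻¹ (inv_mem hu) _)))
      (Subgroup.mem_sup_right hb1)
  have hKcop : (Nat.card ↥(O ⊔ ⁅A, A⁆)).Coprime (Nat.card H) := by
    have hd := card_sup_dvd80 O ⁅A, A⁆
    have hBd : Nat.card ↥⁅A, A⁆ ∣ Nat.card A := Subgroup.card_dvd_of_le hBA
    have h1 : (Nat.card O * Nat.card ↥⁅A, A⁆).Coprime (Nat.card H) :=
      Nat.Coprime.mul_left hOcop (Nat.Coprime.coprime_dvd_left hBd hAcop)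
    exact Nat.Coprime.coprime_dvd_left hd h1
  have hBO : ⁅A, A⁆ ≤ O := le_sup_right.trans (hOmax _ hKnormal hKcop)
  rw [commutator_def, Subgroup.commutator_le]
  intro x _ y _
  obtain ⟨u₁, hu₁, h₁, hh₁, a₁, ha₁, rfl⟩ := hdecG x
  obtain ⟨u₂, hu₂, h₂, hh₂, a₂, ha₂, rfl⟩ := hdecG y
  have hq1 : u₁ * h₁ ∈ O ⊔ H := mul_mem (Subgroup.mem_sup_left hu₁) (Subgroup.mem_sup_right hh₁)
  have hq2 : u₂ * h₂ ∈ O ⊔ H := mul_mem (Subgroup.mem_sup_left hu₂) (Subgroup.mem_sup_right hh₂)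
  have hc : ⁅a₁, a₂⁆ ∈ O ⊔ H :=
    Subgroup.mem_sup_left (hBO (Subgroup.commutator_mem_commutator ha₁ ha₂))
  have hker : ∀ z : G, QuotientGroup.mk' (O ⊔ H) z = 1 ↔ z ∈ O ⊔ H :=
    fun z => QuotientGroup.eq_one_iff z
  have e1 : QuotientGroup.mk' (O ⊔ H) (u₁ * h₁ * a₁) = QuotientGroup.mk' (O ⊔ H) a₁ := by
    rw [map_mul, (hker _).mpr hq1, one_mul]
  have e2 : QuotientGroup.mk' (O ⊔ H) (u₂ * h₂ * a₂) = QuotientGroup.mk' (O ⊔ H) a₂ := by
    rw [map_mul, (hker _).mpr hq2, one_mul]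
  rw [← hker, map_commutatorElement, e1, e2, ← map_commutatorElement, hker]
  exact hc

end Cfsg.Agent.Lib.Helper80.TIH
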